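import Cfsg.Agent.H7.Cls

/-! The field with sixteen elements. -/

set_option autoImplicit false

namespace CfsgH7

variable {F : Type*} [Field F] [Fintype F]

def ar16 : Ar where
  q := 16
  add a b := (a + b) % 2 + 2 * ((a / 2 + b / 2) % 2) + 4 * ((a / 4 + b / 4) % 2) + 8 * ((a / 8 + b / 8) % 2)
  sub a b := (a + b) % 2 + 2 * ((a / 2 + b / 2) % 2) + 4 * ((a / 4 + b / 4) % 2) + 8 * ((a / 8 + b / 8) % 2)
  mul a b := (a * b + a / 2 * (b / 8) + a / 4 * (b / 4) + a / 8 * (b / 2)) % 2 +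
    2 * ((a * (b / 2) + a / 2 * b + a / 2 * (b / 8) + a / 4 * (b / 4) + a / 8 * (b / 2) + a / 4 * (b / 8) + a / 8 * (b / 4)) % 2) +
    4 * ((a * (b / 4) + a / 2 * (b / 2) + a / 4 * b + a / 4 * (b / 8) + a / 8 * (b / 4) + a / 8 * (b / 8)) % 2) +
    8 * ((a * (b / 8) + a / 2 * (b / 4) + a / 4 * (b / 2) + a / 8 * b + a / 8 * (b / 8)) % 2)

def cf16 {F : Type*} [CommRing F] (θ : F) (a : Nat) : F :=
  (a : F) + ((a / 2 : Nat) : F) * θ + ((a / 4 : Nat) : F) * θ ^ 2 + ((a / 8 : Nat) : F) * θ ^ 3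

omit [Fintype F] in
theorem cf16_mk [CharP F 2] (θ : F) (x y z w : Nat) :
    cf16 θ (x % 2 + 2 * (y % 2) + 4 * (z % 2) + 8 * (w % 2)) = x + y * θ + z * θ ^ 2 + w * θ ^ 3 := by
  have h3 : (2 : F) = 0 := CharP.cast_eq_zero F 2
  rw [cf16, show (x % 2 + 2 * (y % 2) + 4 * (z % 2) + 8 * (w % 2)) / 2 = y % 2 + 2 * (z % 2) + 4 * (w % 2) by omega,
    show (x % 2 + 2 * (y % 2) + 4 * (z % 2) + 8 * (w % 2)) / 4 = z % 2 + 2 * (w % 2) by omega,
    show (x % 2 + 2 * (y % 2) + 4 * (z % 2) + 8 * (w % 2)) / 8 = w % 2 by omega]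
  push_cast [← CharP.natCast_eq_natCast_mod]
  linear_combination (y + 2 * z + 4 * w + z * θ + 2 * w * θ + w * θ ^ 2) * h3

theorem fld16 (h : Fintype.card F = 16) : CharP F 2 ∧ ∃ θ : F, ar16.Ok (cf16 θ) := by
  have := char_of_card (p := 2) (f := 4) (by norm_num) h
  have h3 : (2 : F) = 0 := CharP.cast_eq_zero F 2
  obtain ⟨θ, hθ⟩ : ∃ θ : F, θ ^ 4 = θ + 1 := by
    obtain ⟨u, h1⟩ := not_forall.1 (mt (FiniteField.forall_pow_eq_one_iff F 3).1 (by rw [h]; norm_num))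
    have h2 := FiniteField.pow_card_sub_one_eq_one u.1 u.ne_zero
    replace h1 : u.1 ^ 3 - 1 ≠ 0 := fun e => h1 (Units.ext (sub_eq_zero.1 e))
    generalize u.1 = x at h1 h2
    rw [h] at h2
    have : (x ^ 3 - 1) * ((x ^ 4 + x + 1) * ((x ^ 4 + x ^ 3 + 1) * (x ^ 4 + x ^ 3 + x ^ 2 + x + 1))) = 0 := by
      linear_combination h2 + ((-1) * x ^ 1 + (-1) * x ^ 2 + (-1) * x ^ 3 + (-2) * x ^ 4 + (-2) * x ^ 5 + (-1) * x ^ 6 + (1) * x ^ 9 + (2) * x ^ 10 + (2) * x ^ 11 + (1) * x ^ 12 + (1) * x ^ 13 + (1) * x ^ 14) * h3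
    rcases mul_eq_zero.1 ((mul_eq_zero.1 this).resolve_left h1) with e | e
    · exact ⟨x, by linear_combination ((1) * x ^ 0) * e + ((-1) * x ^ 0 + (-1) * x ^ 1) * h3⟩
    rcases mul_eq_zero.1 e with e | e
    · exact ⟨x ^ 3 + x ^ 2, by linear_combination ((1) * x ^ 0 + (-1) * x ^ 2 + (-2) * x ^ 3 + (-1) * x ^ 4 + (1) * x ^ 5 + (3) * x ^ 6 + (3) * x ^ 7 + (1) * x ^ 8) * e + ((-1) * x ^ 0) * h3⟩
    · exact ⟨(x + 1) ^ 3 + (x + 1) ^ 2, by linear_combination ((-675) * x ^ 0 + (416) * x ^ 1 + (1427) * x ^ 2 + (1523) * x ^ 3 + (958) * x ^ 4 + (388) * x ^ 5 + (100) * x ^ 6 + (15) * x ^ 7 + (1) * x ^ 8) * e + ((344) * x ^ 0 + (207) * x ^ 1 + (-222) * x ^ 2 + (-350) * x ^ 3) * h3⟩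
  have lt : ∀ x y z w : Nat, x % 2 + 2 * (y % 2) + 4 * (z % 2) + 8 * (w % 2) < 16 := fun x y z w => by omega
  have ad : ∀ a b, cf16 θ (ar16.add a b) = cf16 θ a + cf16 θ b := fun a b => by
    refine (cf16_mk θ _ _ _ _).trans ?_
    unfold cf16; push_cast; ring
  have mu : ∀ a b, cf16 θ (ar16.mul a b) = cf16 θ a * cf16 θ b := fun a b => by
    refine (cf16_mk θ _ _ _ _).trans ?_
    unfold cf16; push_cast
    linear_combination (-((((a / 2 : Nat) : F) * ((b / 8 : Nat) : F) + ((a / 4 : Nat) : F) * ((b / 4 : Nat) : F) + ((a / 8 : Nat) : F) * ((b / 2 : Nat) : F)) + (((a / 4 : Nat) : F) * ((b / 8 : Nat) : F) + ((a / 8 : Nat) : F) * ((b / 4 : Nat) : F)) * θ + (((a / 8 : Nat) : F) * ((b / 8 : Nat) : F)) * θ ^ 2)) * hθ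
  have sb : ∀ a b, cf16 θ (ar16.sub a b) = cf16 θ a - cf16 θ b := fun a b => by
    rw [show ar16.sub a b = ar16.add a b from rfl, ad]; linear_combination cf16 θ b * h3
  refine ⟨this, θ, by decide, by simp [cf16], by simp [cf16], fun a ha b hb e => ?_, fun _ _ _ _ => lt _ _ _ _,
    fun _ _ _ _ => lt _ _ _ _, fun _ _ _ _ => lt _ _ _ _, fun a _ b _ => ad a b, fun a _ b _ => sb a b, fun a _ b _ => mu a b⟩
  by_contra hc
  obtain ⟨c, -, h4⟩ := (by decide +kernel : ∀ a < 16, ∀ b < 16, a ≠ b → ∃ c < 16, ar16.mul (ar16.sub a b) c = 1) a ha b hb hc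
  have := mu (ar16.sub a b) c
  rw [h4, sb, e, sub_self, zero_mul] at this
  simp [cf16] at this

end CfsgH7
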