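import Mathlib

/-! A group of order 17971200 with one class of elements of order three has no doubly transitive action. -/

set_option autoImplicit false
set_option maxRecDepth 100000

namespace CfsgH7

open MulAction Subgroup
open scoped Pointwise

theorem no2t {G Ω : Type*} [Group G] [Finite G] [Fintype Ω] [MulAction G Ω] [FaithfulSMul G Ω]
    (hN : Nat.card G = 17971200) (R : Subgroup G) (hR : Nat.card R = 27) {z x : G}
    (hz : ∀ y ∈ R, y ≠ 1 → IsConj y z) (z1 : z ≠ 1) (hx : orderOf x = 13) (hzx : z * x = x ^ 3 * z)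
    (hΩ : 3 ≤ Fintype.card Ω) : ¬ IsMultiplyPretransitive G Ω 2 := fun h2 => by
  classical
  have x13 : x ^ 13 = 1 := hx ▸ pow_orderOf_eq_one x
  have key : ∀ a b : Ω, a ≠ b → ∃ K : Subgroup G, Fintype.card Ω * (Fintype.card Ω - 1) * Nat.card K = 17971200 ∧
      (x • a = a → x • b = b → x ∈ K) := fun a b h => by
    let e : Fin 2 ↪ Ω := ⟨![a, b], fun i j => by fin_cases i <;> fin_cases j <;> simp [h, h.symm]⟩
    refine ⟨stabilizer G e, ?_, fun h1 h2 => Function.Embedding.ext fun i => by fin_cases i <;> assumption⟩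
    rw [← hN, ← (stabilizer G e).index_mul_card, index_stabilizer_of_transitive, Nat.card_eq_fintype_card (α := _ ↪ _),
      Fintype.card_embedding_eq]
    simp [Nat.descFactorial, mul_comm]
  have fx : ∀ c : G, Nat.card (fixedBy Ω (c * z * c⁻¹)) = Nat.card (fixedBy Ω z) := fun c => by
    rw [← smul_fixedBy]; exact Set.ncard_smul_set c _
  have := Fintype.ofFinite R
  have bs := sum_card_fixedBy_eq_card_orbits_mul_card_group R Ω
  rw [← Finset.add_sum_erase _ _ (Finset.mem_univ 1), Finset.sum_congr rfl (g := fun _ => Nat.card (fixedBy Ω z))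
    fun y hy => by
      obtain ⟨c, hc⟩ := isConj_iff.1 (hz y y.2 fun e => (Finset.mem_erase.1 hy).1 (Subtype.ext e)).symm
      rw [← fx c, hc, Nat.card_eq_fintype_card]; rfl] at bs
  simp only [fixedBy_one_eq_univ, Finset.sum_const, Finset.card_erase_of_mem (Finset.mem_univ _), Finset.card_univ,
    ← Nat.card_eq_fintype_card, hR, smul_eq_mul, Nat.card_coe_set_eq, Set.ncard_univ] at bs
  have lt : (fixedBy Ω z).ncard < Nat.card Ω := by
    rw [← Set.ncard_univ]
    exact Set.ncard_lt_ncard (Set.ssubset_univ_iff.2 fun e => z1 (fixedBy_eq_univ_iff_eq_one.1 e))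
  rw [Nat.card_eq_fintype_card] at bs lt
  obtain ⟨a0, b0, h0⟩ := Fintype.exists_pair_of_one_lt_card (α := Ω) (by omega)
  obtain ⟨K0, k0, -⟩ := key a0 b0 h0
  have hn : Fintype.card Ω = 27 ∨ Fintype.card Ω = 40 ∨ Fintype.card Ω = 65 := by
    have h1 : 0 < Nat.card K0 := Nat.card_pos
    have h3 : Fintype.card Ω < 4241 := by
      by_contra h
      have := Nat.mul_le_mul (Nat.mul_le_mul (not_lt.1 h) (show 4240 ≤ Fintype.card Ω - 1 by omega)) h1
      omega
    exact (by decide +kernel : ∀ n < 4241, 27 ≤ n → n * (n - 1) ∣ 17971200 → n = 27 ∨ n = 40 ∨ n = 65) _ h3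
      (by omega) ⟨_, k0.symm⟩
  have uq : ∀ a b : Ω, x • a = a → x • b = b → a = b := fun a b h1 h3 => by
    by_contra h
    obtain ⟨K, k1, k2⟩ := key a b h
    have := hx ▸ K.orderOf_dvd_natCard (k2 h1 h3)
    rcases hn with e | e | e <;> rw [e] at k1 <;> omega
  have pw : ∀ (a : Ω) (k : Nat), Nat.gcd k 13 = 1 → x ^ k • a = a → x • a = a := fun a k hk h =>
    (zpowers_le (H := stabilizer G a)).2 h (mem_zpowers_pow_iff.2 (hx ▸ hk))
  rcases (by omega : Fintype.card Ω = 27 ∨ Fintype.card Ω < 130 ∧ 11 ≤ (fixedBy Ω z).ncard) with e | ⟨e1, e2⟩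
  · have := Fact.mk (by norm_num : Nat.Prime 13)
    obtain ⟨a, ha⟩ := Equiv.Perm.exists_fixed_point_of_prime (p := 13) (n := 1) (by rw [e]; norm_num)
      (σ := toPermHom G Ω x) (by rw [pow_one, ← map_pow, x13, map_one])
    have ha' : x • a = a := ha
    have : a ∈ fixedBy Ω z := uq _ _ (pw _ 3 (by norm_num) (by rw [← mul_smul, ← hzx, mul_smul, ha'])) ha'
    have := (Set.ncard_pos (Set.toFinite _)).2 ⟨a, this⟩
    omega
  · have c1 : (fixedBy Ω x).ncard ≤ 1 := (Set.ncard_le_one (Set.toFinite _)).2 fun a ha b hb => uq a b ha hb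
    have c2 := Set.ncard_le_ncard_sdiff_add_ncard (fixedBy Ω z) (fixedBy Ω x)
    have c3 := Nat.card_le_card_of_injective
      (fun p : (fixedBy Ω z \ fixedBy Ω x : Set Ω) × Fin 13 => x ^ p.2.val • p.1.val) (by
        rintro ⟨⟨a, a1, a2⟩, i⟩ ⟨⟨b, b1, b2⟩, j⟩ h
        have h1 : x ^ (13 - j.val + i.val) • a = b := by
          rw [pow_add, mul_smul, show x ^ i.val • a = x ^ j.val • b from h, ← mul_smul, ← pow_add,
            Nat.sub_add_cancel j.2.le, x13, one_smul]
        obtain rfl : i = j := by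
          by_contra hij
          refine a2 (pw a (2 * (13 - j.val + i.val))
            ((by decide : ∀ i j : Fin 13, i ≠ j → Nat.gcd (2 * (13 - j.val + i.val)) 13 = 1) i j hij) ?_)
          generalize 13 - j.val + i.val = m at h1
          have h3 : z * x ^ m = (x ^ 3) ^ m * z := (show SemiconjBy z x (x ^ 3) from hzx).pow_right m
          have h4 : z • b = b := b1
          rw [← h1, ← mul_smul, h3, mul_smul, show z • a = a from a1, ← pow_mul, show 3 * m = m + 2 * m by ring,
            pow_add, mul_smul] at h4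
          exact MulAction.injective _ h4
        exact Prod.ext (Subtype.ext (MulAction.injective _ h)) rfl)
    rw [Nat.card_prod, Nat.card_coe_set_eq, Nat.card_eq_fintype_card (α := Ω)] at c3
    simp only [Nat.card_eq_fintype_card, Fintype.card_fin] at c3
    omega

end CfsgH7
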