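import Cfsg.Agent.H7.AfT

/-! Element orders in central quotients. -/

set_option autoImplicit false

namespace CfsgH7

open Subgroup

theorem quo_bound {G : Type*} [Group G] [Finite G] {Z : Subgroup G} [hZ : Z.Normal] {p m : Nat} (hp : p.Prime) (hN : ¬ p ^ 2 ∣ Nat.card G)
    {a b : G} (ha : orderOf a = p) (hc : centralizer {a} = zpowers b) (hb : b ^ m ∈ Z) (x : G ⧸ Z) (d : p ∣ orderOf x) :
    orderOf x ∣ m := by
  obtain ⟨x, rfl⟩ := QuotientGroup.mk'_surjective Z x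
  obtain ⟨c, t, e⟩ := cyc_conj hp hN ha (orderOf_pow_orderOf_div (orderOf_pos x).ne' (d.trans (orderOf_map_dvd _ x)))
  have h : Commute x (c * a * c⁻¹) := e ▸ ((Commute.refl x).pow_right _).zpow_right t
  obtain ⟨s, hs⟩ : c⁻¹ * x * c ∈ zpowers b := hc ▸ mem_centralizer_singleton_iff.2 (by
    rw [← mul_left_inj c⁻¹, ← mul_right_inj c]; simpa [mul_assoc] using h.eq)
  rw [orderOf_dvd_iff_pow_eq_one, ← map_pow, QuotientGroup.mk'_apply, QuotientGroup.eq_one_iff,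
    show x = c * b ^ s * c⁻¹ by rw [show b ^ s = _ from hs]; group, conj_pow, ← zpow_natCast, ← zpow_mul, mul_comm s, zpow_mul,
    zpow_natCast]
  exact hZ.conj_mem _ (zpow_mem hb s) c

variable {G : Type*} [Group G] {Ω : Type*} [MulAction G Ω] {pt : Nat → Ω} {n : Nat} {g : Nat → G} {l : List Net} {k N : Nat}
  {bs : List Nat}

theorem Md.ordQ (M : Md pt n g l k N bs) {Z : Subgroup G} [Z.Normal] {z : List Nat} (hZ : ∀ x, x ∈ Z ↔ x = 1 ∨ x = wprod g z)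
    (w : List Nat) {m : Nat} (h : band (Nat.blt 0 m) (band (CfsgH7.inZ l bs z (powA w m []))
      (nall (fun i => band (Bool.not (fixesP l (powA w (i + 1) []) bs))
        (Bool.not (fixesP l (rinv (powA w (i + 1) []) z) bs))) (m - 1))) = true) : ∃ x : G ⧸ Z, orderOf x = m := by
  obtain ⟨h1, h2⟩ := band_iff.1 h
  obtain ⟨h2, h3⟩ := band_iff.1 h2
  have k : ∀ i, (QuotientGroup.mk' Z (wprod g w)) ^ i = 1 ↔ wprod g (powA w i []) ∈ Z := fun i => by
    rw [← map_pow, QuotientGroup.mk'_apply, QuotientGroup.eq_one_iff, wprod_powA, wprod_nil, mul_one]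
  refine ⟨_, (orderOf_eq_iff (by simpa [Nat.blt_eq] using h1)).2 ⟨(k _).2 ((hZ _).2 (M.or1 h2)), fun i hi h0 e => ?_⟩⟩
  have := band_iff.1 (nall_iff.1 h3 (i - 1) (by omega))
  rw [Nat.sub_add_cancel h0] at this
  exact ((hZ _).1 ((k _).1 e)).elim (M.neP this.1) fun e => M.neP this.2 (by rw [wprod_rinv, e, inv_mul_cancel])

theorem mem_two {Z : Subgroup G} {z : G} (h : Nat.card Z = 2) (hz : z ∈ Z) (h1 : z ≠ 1) (x : G) : x ∈ Z ↔ x = 1 ∨ x = z := by
  refine ⟨fun hx => ?_, fun h => h.elim (· ▸ one_mem _) (· ▸ hz)⟩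
  obtain ⟨y, -, e⟩ := (Nat.card_eq_two_iff' (1 : Z)).1 h
  by_cases c : x = 1
  · exact .inl c
  exact .inr (congrArg Subtype.val ((e ⟨x, hx⟩ fun e => c (congrArg Subtype.val e)).trans
    (e ⟨z, hz⟩ fun e => h1 (congrArg Subtype.val e)).symm))

theorem edge63 {X : Type*} [Group X] [Finite X] (hc : Nat.card X ∣ [2, 3, 5, 7, 13].prod ^ 9)
    (h7 : ∀ x : X, 7 ∣ orderOf x → orderOf x ∣ 14) (h13 : ∀ x : X, 13 ∣ orderOf x → orderOf x ∣ 13) {p q : Nat} (hp : p.Prime)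
    (hq : q.Prime) (n : p ≠ q) (x : X) (h : orderOf x = p * q) : p * q ∈ [6, 10, 14, 15] :=
  have d := (h ▸ orderOf_dvd_natCard x).trans hc
  (show ∀ p ∈ [2, 3, 5, 7, 13], ∀ q ∈ [2, 3, 5, 7, 13], p ≠ q → (7 ∣ p * q → p * q ∣ 14) → (13 ∣ p * q → p * q ∣ 13) →
    p * q ∈ [6, 10, 14, 15] by decide) p (prime_mem hp (by norm_num) ((dvd_mul_right p q).trans d)) q
    (prime_mem hq (by norm_num) ((dvd_mul_left q p).trans d)) n (h ▸ h7 x) (h ▸ h13 x)

theorem primes63 {m p : Nat} (hp : p.Prime) (hc : m ∣ [2, 3, 5, 7, 13].prod ^ 9) (h : 2730 ∣ m) : p ∣ m ↔ p ∈ [2, 3, 5, 7, 13] :=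
  ⟨fun d => prime_mem hp (by norm_num) (d.trans hc), fun e => (show p ∣ 2730 by clear hp; revert p; decide).trans h⟩

end CfsgH7
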