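import Cfsg.Agent.H7.Vec2
import Cfsg.Agent.H7.Enum

/-! Matrices over a prime field with rows packed into natural numbers. -/

set_option autoImplicit false

namespace CfsgH7.Pk

/-- Packed digits. -/
def pk (B : Nat) : Nat → (Nat → Nat) → Nat
  | 0, _ => 0
  | d + 1, f => f 0 + B * pk B d fun j => f (j + 1)

def tab : Nat → (Nat → Nat) → List Nat
  | 0, _ => []
  | d + 1, f => f 0 :: tab d fun j => f (j + 1)

theorem pk_lin (B d a : Nat) (f g : Nat → Nat) : pk B d (fun j => a * f j + g j) = a * pk B d f + pk B d g := by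
  induction d generalizing f g with
  | zero => simp [pk]
  | succ d ih => simp only [pk]; rw [ih]; ring

theorem pk_zero (B d : Nat) : pk B d (fun _ => 0) = 0 := by
  induction d with
  | zero => rfl
  | succ d ih => simp [pk, ih]

theorem map_tab (φ : Nat → Nat) (d : Nat) (f : Nat → Nat) : (tab d f).map φ = tab d fun j => φ (f j) := by
  induction d generalizing f with
  | zero => rfl
  | succ d ih => simp only [tab, List.map_cons, ih]

/-- A packed row times a matrix with packed rows. -/
noncomputable def row (p B : Nat) (S : List Nat) : Nat → Nat :=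
  List.rec (motive := fun _ => Nat → Nat) (fun _ => nat_lit 0)
    (fun s _ ih r => Nat.add (Nat.mul (Nat.mod (Nat.mod r B) p) s) (ih (Nat.div r B))) S

theorem row_eq {p B n d : Nat} {f : Nat → Nat} (hf : ∀ j, f j < B) (g : Nat → Nat → Nat) :
    row p B (tab n fun k => pk B d (g k)) (pk B n f) = pk B d fun j => ∑ k ∈ Finset.range n, f k % p * g k j := by
  induction n generalizing f g with
  | zero => simp only [Finset.range_zero, Finset.sum_empty, pk_zero]; rfl
  | succ n ih =>
    have e : ∀ s S r, row p B (s :: S) r = r % B % p * s + row p B S (r / B) := fun s S r => rfl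
    have h0 := Nat.zero_lt_of_lt (hf 0)
    rw [tab, e, pk, Nat.add_mul_div_left _ _ h0, Nat.div_eq_of_lt (hf 0), zero_add, Nat.add_mul_mod_self_left, Nat.mod_eq_of_lt (hf 0),
      ih (fun j => hf _), ← pk_lin]
    congr 1; funext j
    rw [Finset.sum_range_succ', add_comm]

variable (p B d : Nat)

def pm (F : Nat → Nat → Nat) : List Nat := tab d fun i => pk B d (F i)

def mulF (F G : Nat → Nat → Nat) (i j : Nat) : Nat := ∑ k ∈ Finset.range d, F i k % p * G k j

noncomputable def mulP (R S : List Nat) : List Nat := R.map (row p B S)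

def toM (F : Nat → Nat → Nat) : Matrix (Fin d) (Fin d) (ZMod p) := fun i j => F i j

def idF (i j : Nat) : Nat := if i = j then 1 else 0

/-- The entries of the packed matrices. -/
noncomputable def ent (Ms : List (List Nat)) (k i j : Nat) : Nat := nth (wordAt Ms k) i / B ^ j % B % p

noncomputable def wd (Ms : List (List Nat)) (w : List Nat) : List Nat → (List Nat → Bool) → Bool :=
  List.rec (motive := fun _ => List Nat → (List Nat → Bool) → Bool) (fun acc k => k acc)
    (fun x _ ih acc k => forceL (mulP p B acc (wordAt Ms (Nat.div x 2))) fun a => ih a k) w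

noncomputable def eqR (d : Nat) : Nat → Nat → Bool :=
  Nat.rec (motive := fun _ => Nat → Nat → Bool) (fun _ _ => true)
    (fun _ ih r s => band (Nat.beq (Nat.mod (Nat.mod r B) p) (Nat.mod (Nat.mod s B) p))
      (ih (Nat.div r B) (Nat.div s B))) d

noncomputable def same (R : List Nat) : List Nat → Bool :=
  List.rec (motive := fun _ => List Nat → Bool) (fun _ => true) (fun r _ ih S => band (eqR p B d r (nth S 0)) (ih S.tail)) R

/-- The word fixes the first matrix under right multiplication. -/
noncomputable def one (Ms : List (List Nat)) (w : List Nat) : Bool := wd p B Ms w (wordAt Ms 0) fun a => same p B d a (wordAt Ms 0)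

variable {p B d}

theorem mulP_eq {F : Nat → Nat → Nat} (hF : ∀ i j, F i j < B) (G : Nat → Nat → Nat) :
    mulP p B (pm B d F) (pm B d G) = pm B d (mulF p d F G) := by
  unfold mulP
  refine (map_tab _ _ _).trans (congrArg (tab d) (funext fun i => ?_))
  exact row_eq (hF i) G

theorem mulF_lt (hp : 0 < p) (hB : d * p * p < B) (F : Nat → Nat → Nat) {G : Nat → Nat → Nat} (hG : ∀ i j, G i j < p) (i j : Nat) :
    mulF p d F G i j < B := by
  refine lt_of_le_of_lt ((Finset.sum_le_card_nsmul _ _ (p * p) fun k _ => Nat.mul_le_mul (Nat.mod_lt _ hp).le (hG _ _).le).trans ?_) hB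
  simp [mul_assoc]

theorem toM_mul (F G : Nat → Nat → Nat) : toM p d (mulF p d F G) = toM p d F * toM p d G := by
  ext i j
  simp only [toM, mulF, Matrix.mul_apply, Finset.sum_range]
  push_cast; simp

theorem toM_id : toM p d idF = 1 := by
  ext i j
  simp [toM, idF, Matrix.one_apply, Fin.ext_iff]

theorem eqR_spec {n : Nat} {f g : Nat → Nat} (hf : ∀ j, f j < B) (hg : ∀ j, g j < B) (h : eqR p B n (pk B n f) (pk B n g) = true) :
    ∀ j < n, f j % p = g j % p := by
  induction n generalizing f g with
  | zero => simp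
  | succ n ih =>
    obtain ⟨h1, h2⟩ := band_iff.1 (show band (Nat.beq (pk B (n + 1) f % B % p) (pk B (n + 1) g % B % p))
      (eqR p B n (pk B (n + 1) f / B) (pk B (n + 1) g / B)) = true from h)
    have h0 := Nat.zero_lt_of_lt (hf 0)
    rw [pk, pk, Nat.add_mul_div_left _ _ h0, Nat.add_mul_div_left _ _ h0, Nat.div_eq_of_lt (hf 0),
      Nat.div_eq_of_lt (hg 0), zero_add, zero_add] at h2
    rw [pk, pk, Nat.add_mul_mod_self_left, Nat.add_mul_mod_self_left, Nat.mod_eq_of_lt (hf 0), Nat.mod_eq_of_lt (hg 0)] at h1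
    rintro (_ | j) hj
    exacts [Nat.eq_of_beq_eq_true h1, ih (fun j => hf _) (fun j => hg _) h2 j (by omega)]

theorem same_tab {n : Nat} {a b : Nat → Nat} (h : same p B d (tab n a) (tab n b) = true) : ∀ i < n, eqR p B d (a i) (b i) = true := by
  induction n generalizing a b with
  | zero => simp
  | succ n ih =>
    obtain ⟨h1, h2⟩ := band_iff.1 (show band (eqR p B d (a 0) (b 0)) (same p B d (tab n fun j => a (j + 1)) (tab n fun j => b (j + 1))) = true from h)
    rintro (_ | j) hj
    exacts [h1, ih h2 j (by omega)]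

theorem same_spec {F G : Nat → Nat → Nat} (hF : ∀ i j, F i j < B) (hG : ∀ i j, G i j < B) (h : same p B d (pm B d F) (pm B d G) = true) :
    toM p d F = toM p d G := by
  ext i j
  exact (ZMod.natCast_eq_natCast_iff' _ _ _).2 (eqR_spec (hF i) (hG i) (same_tab h i i.2) j j.2)

theorem wd_spec (hp : 1 < p) (hB : d * p * p < B) {Ms : List (List Nat)} {m : Nat}
    (hM : ∀ k < m, wordAt Ms k = pm B d (ent p B Ms k)) {w : List Nat} (hw : ∀ x ∈ w, x / 2 < m) {G : Nat → Nat → Nat}
    (hG : ∀ i j, G i j < B) (F : Nat → Nat → Nat) (hF : ∀ i j, F i j < B)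
    (h : wd p B Ms w (pm B d F) (fun a => same p B d a (pm B d G)) = true) :
    toM p d F * (w.map fun x => toM p d (ent p B Ms (x / 2))).prod = toM p d G := by
  induction w generalizing F with
  | nil => rw [List.map_nil, List.prod_nil, mul_one]; exact same_spec hF hG h
  | cons x w ih =>
    have h : forceL _ _ = true := h
    rw [forceL_eq, show Nat.div x 2 = x / 2 from rfl, hM _ (hw x (by simp)), mulP_eq hF] at h
    rw [List.map_cons, List.prod_cons, ← mul_assoc, ← toM_mul]
    exact ih (fun y hy => hw y (by simp [hy])) _ (mulF_lt (by omega) hB F fun i j => Nat.mod_lt _ (by omega)) h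

open Classical in
/-- Involutions given by packed matrices. -/
noncomputable def gen (p B d : Nat) (Ms : List (List Nat)) (k : Nat) : GL (Fin d) (ZMod p) :=
  if h : toM p d (ent p B Ms k) * toM p d (ent p B Ms k) = 1 then ⟨_, _, h, h⟩ else 1

theorem sat (hp : 1 < p) (hB : d * p * p < B) (hB' : p < B) {Ms : List (List Nat)} {m : Nat} {I : List Nat}
    (hM : ∀ k < m, wordAt Ms k = pm B d (ent p B Ms k)) (hI : I = pm B d idF) (hm : 0 < m)
    (h0 : wd p B Ms [0] (wordAt Ms 0) (fun a => same p B d a I) = true) {R : List (List Nat)}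
    (h1 : band (nall (fun k => R.contains [2 * k, 2 * k]) m) (lall (lall fun x => Nat.blt (x / 2) m) R) = true)
    (h : lall (one p B d Ms) R = true) :
    Sat (gen p B d Ms) R ∧ ∀ k < m, (gen p B d Ms k : Matrix (Fin d) (Fin d) (ZMod p)) = toM p d (ent p B Ms k) := by
  subst hI
  obtain ⟨h1, h2⟩ := band_iff.1 h1
  have h2 : ∀ r ∈ R, ∀ x ∈ r, x / 2 < m := fun r hr x hx => by simpa [Nat.blt_eq] using lall_iff.1 (lall_iff.1 h2 r hr) x hx
  have he : ∀ i j, ent p B Ms 0 i j < B := fun i j => (Nat.mod_lt _ (by omega)).trans hB'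
  rw [hM 0 hm] at h0
  have h0 := wd_spec hp hB hM (by simpa using hm) (fun i j => by unfold idF; split <;> omega) _ he h0
  rw [toM_id, List.map_singleton, List.prod_singleton] at h0
  have h3 : ∀ r ∈ R, (r.map fun x => toM p d (ent p B Ms (x / 2))).prod = 1 := fun r hr => by
    have := lall_iff.1 h r hr
    rw [one, hM 0 hm] at this
    have := congrArg (toM p d (ent p B Ms 0) * ·) (wd_spec hp hB hM (h2 r hr) he _ he this)
    rwa [← mul_assoc, show toM p d (ent p B Ms 0) * toM p d (ent p B Ms 0) = 1 from h0, one_mul] at this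
  have h4 : ∀ k < m, toM p d (ent p B Ms k) * toM p d (ent p B Ms k) = 1 := fun k hk => by
    simpa using h3 _ (List.contains_iff_mem.1 (nall_iff.1 h1 k hk))
  refine ⟨fun r hr => Units.ext ?_, fun k hk => by rw [gen, dif_pos (h4 k hk)]⟩
  refine Eq.trans ?_ (h3 r hr)
  rw [wprod, ← Units.coeHom_apply, map_list_prod, List.map_map]
  congr 1
  refine List.map_congr_left fun x hx => ?_
  simp only [Function.comp, letter, gen, dif_pos (h4 _ (h2 r hr x hx))]
  split <;> rfl

end CfsgH7.Pk
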