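import Cfsg.Agent.H7.PkM

/-! Packed matrices together with their inverses. -/

set_option autoImplicit false

namespace CfsgH7.Pk

open Classical in
/-- Invertible matrices: position `2k` holds the matrix, position `2k+1` its inverse. -/
noncomputable def gen2 (p B d : Nat) (Ms : List (List Nat)) (k : Nat) : GL (Fin d) (ZMod p) :=
  if h : toM p d (ent p B Ms (2 * k)) * toM p d (ent p B Ms (2 * k + 1)) = 1 then
    ⟨_, _, h, mul_eq_one_comm.1 h⟩ else 1

/-- The word multiplies out to the identity. -/
noncomputable def one2 (p B d : Nat) (Ms : List (List Nat)) (I w : List Nat) : Bool :=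
  wd p B Ms (w.map fun x => Nat.mul 2 x) I fun a => same p B d a I

theorem sat2 {p B d : Nat} (hp : 1 < p) (hB : d * p * p < B) (hB' : 1 < B) {Ms : List (List Nat)} {m : Nat} {I : List Nat}
    (hM : ∀ k < 2 * m, wordAt Ms k = pm B d (ent p B Ms k)) (hI : I = pm B d idF)
    (h0 : nall (fun k => one2 p B d Ms I [2 * k, 2 * k + 1]) m = true) {R : List (List Nat)}
    (h1 : lall (lall fun x => Nat.blt x (2 * m)) R = true) (h : lall (one2 p B d Ms I) R = true) :
    Sat (gen2 p B d Ms) R ∧
      ∀ k < m, (gen2 p B d Ms k : Matrix (Fin d) (Fin d) (ZMod p)) = toM p d (ent p B Ms (2 * k)) := by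
  subst hI
  have hi : ∀ i j, idF i j < B := fun i j => by unfold idF; split <;> omega
  have h3 : ∀ r : List Nat, (∀ x ∈ r, x < 2 * m) → one2 p B d Ms (pm B d idF) r = true →
      (r.map fun x => toM p d (ent p B Ms x)).prod = 1 := fun r hr h => by
    have := wd_spec hp hB hM (fun x hx => by
      obtain ⟨y, hy, rfl⟩ := List.mem_map.1 hx
      have := hr y hy
      show 2 * y / 2 < _
      omega) hi _ hi h
    rw [toM_id, one_mul, List.map_map] at this
    refine Eq.trans (congrArg _ (List.map_congr_left fun x _ => ?_)) this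
    show _ = toM p d (ent p B Ms (2 * x / 2))
    rw [Nat.mul_div_cancel_left _ (by norm_num)]
  have h4 : ∀ k < m, toM p d (ent p B Ms (2 * k)) * toM p d (ent p B Ms (2 * k + 1)) = 1 := fun k hk => by
    simpa using h3 _ (by simp; omega) (nall_iff.1 h0 k hk)
  refine ⟨fun r hr => Units.ext ?_, fun k hk => by rw [gen2, dif_pos (h4 k hk)]⟩
  have h2 : ∀ x ∈ r, x < 2 * m := fun x hx => by simpa [Nat.blt_eq] using lall_iff.1 (lall_iff.1 h1 r hr) x hx
  refine Eq.trans ?_ (h3 r h2 (lall_iff.1 h r hr))
  rw [wprod, ← Units.coeHom_apply, map_list_prod, List.map_map]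
  congr 1
  refine List.map_congr_left fun x hx => ?_
  have := h2 x hx
  simp only [Function.comp, letter, gen2, dif_pos (h4 (x / 2) (by omega))]
  split
  · show toM p d (ent p B Ms (2 * (x / 2))) = _
    rw [show 2 * (x / 2) = x by omega]
  · show toM p d (ent p B Ms (2 * (x / 2) + 1)) = _
    rw [show 2 * (x / 2) + 1 = x by omega]

theorem pow_ne {p d : Nat} [NeZero d] {x : GL (Fin d) (ZMod p)} {c : ZMod p} {F : Nat → Nat → Nat}
    (h : (x : Matrix (Fin d) (Fin d) (ZMod p)) = toM p d F)
    (hF : ∀ i < d, ∀ j < d, (F i j : ZMod p) = if i = j then c else 0) {i : Nat} (hi : c ^ i ≠ 1) : x ^ i ≠ 1 := fun e => by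
  have h1 : toM p d F = Matrix.scalar _ c := by
    ext i j
    rw [toM, hF i i.2 j j.2, Matrix.scalar_apply, Matrix.diagonal_apply]
    exact if_congr Fin.val_inj rfl rfl
  have := congrArg Units.val e
  rw [Units.val_pow_eq_pow_val, h, h1, ← map_pow] at this
  exact hi (by simpa using congrFun (congrFun this 0) 0)

end CfsgH7.Pk
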